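import Mathlib
import Cfsg.Agent.Lib.Helper82.Alt2.Defs
import Cfsg.Agent.Lib.Helper62.Alt2.Klein
import Cfsg.Agent.Lib.Helper38.Alt3.LemQ

/-!
# S2928 team project (helper82): package [AFF]

The affine configuration `AG(3,2)` is impossible: the translation group `E` (elementary abelian
of order 8) is normalized by the Klein groups on the planes, hence by `L`; the dichotomy `lemQ`
and `C(E) = E` inside the symmetric group on the 8 points give `L ≤ E`, which is abelian.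
-/

set_option autoImplicit false

namespace Cfsg.Agent.Lib.Helper61.Alt2

open Equiv
open Cfsg.Agent.Lib.Helper38.Alt3 (QS lemQ)
open Cfsg.Agent.Lib.Helper82.Alt2
open Cfsg.Agent.Lib.Helper62.Alt2

theorem xor8_cancel : ∀ w x : Fin 8, (x ^^^ w) ^^^ w = x := by decide
theorem xor8_assoc : ∀ w w' x : Fin 8, (x ^^^ w') ^^^ w = x ^^^ (w ^^^ w') := by decide
theorem xor8_comm : ∀ a b : Fin 8, a ^^^ b = b ^^^ a := by decide
theorem xor8_zero : ∀ x : Fin 8, x ^^^ 0 = x := by decide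
theorem zero_xor8 : ∀ x : Fin 8, 0 ^^^ x = x := by decide
theorem xor8_self : ∀ x : Fin 8, x ^^^ x = 0 := by decide

/-- translation by `w` on `𝔽₂³ = Fin 8` -/
def tr (w : Fin 8) : Perm (Fin 8) where
  toFun x := x ^^^ w
  invFun x := x ^^^ w
  left_inv x := xor8_cancel w x
  right_inv x := xor8_cancel w x

theorem tr_apply (w x : Fin 8) : tr w x = x ^^^ w := rfl

theorem tr_zero : tr 0 = 1 := Equiv.ext fun x => by rw [tr_apply, xor8_zero]; rfl

theorem tr_mul (w w' : Fin 8) : tr w * tr w' = tr (w ^^^ w') :=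
  Equiv.ext fun x => by rw [Perm.mul_apply, tr_apply, tr_apply, tr_apply, xor8_assoc]

theorem tr_inv (w : Fin 8) : (tr w)⁻¹ = tr w := by
  apply inv_eq_of_mul_eq_one_left
  rw [tr_mul, xor8_self, tr_zero]

theorem via_swap {n : ℕ} (φ : Fin 8 ↪ Fin n) (a b : Fin 8) :
    Perm.viaEmbeddingHom φ (swap a b) = swap (φ a) (φ b) := by
  refine Equiv.ext fun x => ?_
  by_cases hx : x ∈ Set.range φ
  · obtain ⟨y, rfl⟩ := hx
    rw [Perm.viaEmbeddingHom_apply, Perm.viaEmbedding_apply, φ.injective.swap_apply]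
  · rw [Perm.viaEmbeddingHom_apply, Perm.viaEmbedding_apply_of_notMem _ _ _ hx]
    rw [swap_apply_of_ne_of_ne]
    · rintro rfl; exact hx ⟨a, rfl⟩
    · rintro rfl; exact hx ⟨b, rfl⟩

theorem via_dt {n : ℕ} (φ : Fin 8 ↪ Fin n) {a b c d : Fin 8} (hab : a ≠ b) (hac : a ≠ c)
    (had : a ≠ d) (hbc : b ≠ c) (hbd : b ≠ d) (hcd : c ≠ d) :
    DT (({a, b, c, d} : Finset (Fin 8)).map φ)
      (Perm.viaEmbeddingHom φ (swap a b * swap c d)) := by
  rw [map_mul, via_swap, via_swap]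
  have e : ({a, b, c, d} : Finset (Fin 8)).map φ = {φ a, φ b, φ c, φ d} := by
    simp [Finset.map_insert]
  rw [e]
  exact dt_swap (φ.injective.ne hab) (φ.injective.ne hac) (φ.injective.ne had)
    (φ.injective.ne hbc) (φ.injective.ne hbd) (φ.injective.ne hcd)

theorem dt_pull {n : ℕ} (φ : Fin 8 ↪ Fin n) {A : Finset (Fin 8)} (hA : A.card = 4)
    {g : Perm (Fin n)} (hg : DT (A.map φ) g) :
    ∃ a b c d : Fin 8, a ∈ A ∧ b ∈ A ∧ c ∈ A ∧ d ∈ A ∧ a ≠ b ∧ a ≠ c ∧ a ≠ d ∧ b ≠ c ∧ b ≠ d ∧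
      c ≠ d ∧ g = Perm.viaEmbeddingHom φ (swap a b * swap c d) := by
  have hcard : (A.map φ).card = 4 := by rw [Finset.card_map]; exact hA
  obtain ⟨a', b', c', d', hab, hac, had, hbc, hbd, hcd, hs, rfl⟩ := dt_cases hcard hg
  have ha' : a' ∈ A.map φ := by rw [hs]; simp
  have hb' : b' ∈ A.map φ := by rw [hs]; simp
  have hc' : c' ∈ A.map φ := by rw [hs]; simp
  have hd' : d' ∈ A.map φ := by rw [hs]; simp
  obtain ⟨a, ha, rfl⟩ := Finset.mem_map.1 ha'
  obtain ⟨b, hb, rfl⟩ := Finset.mem_map.1 hb'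
  obtain ⟨c, hc, rfl⟩ := Finset.mem_map.1 hc'
  obtain ⟨d, hd, rfl⟩ := Finset.mem_map.1 hd'
  refine ⟨a, b, c, d, ha, hb, hc, hd, fun h => hab (by rw [h]), fun h => hac (by rw [h]),
    fun h => had (by rw [h]), fun h => hbc (by rw [h]), fun h => hbd (by rw [h]),
    fun h => hcd (by rw [h]), ?_⟩
  rw [map_mul, via_swap, via_swap]

/-- the image of the translation group of `AG(3,2)` -/
def transl {n : ℕ} (φ : Fin 8 ↪ Fin n) : Subgroup (Perm (Fin n)) where
  carrier := {g | ∃ w : Fin 8, g = Perm.viaEmbeddingHom φ (tr w)}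
  one_mem' := ⟨0, by rw [tr_zero, map_one]⟩
  mul_mem' := by
    rintro a b ⟨w, rfl⟩ ⟨w', rfl⟩
    exact ⟨w ^^^ w', by rw [← map_mul, tr_mul]⟩
  inv_mem' := by
    rintro a ⟨w, rfl⟩
    exact ⟨w, by rw [← map_inv, tr_inv]⟩

theorem transl_comm {n : ℕ} (φ : Fin 8 ↪ Fin n) {a b : Perm (Fin n)} (ha : a ∈ transl φ)
    (hb : b ∈ transl φ) : a * b = b * a := by
  obtain ⟨w, rfl⟩ := ha
  obtain ⟨w', rfl⟩ := hb
  rw [← map_mul, ← map_mul, tr_mul, tr_mul, xor8_comm]

theorem planes_card : ∀ A ∈ planes, A.card = 4 := by decide +kernel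

/-- auxiliary choice of a second direction -/
def uOf (w : Fin 8) : Fin 8 := if w = 1 then 2 else 1

/-- auxiliary choice of a point outside the plane -/
def vOf (w : Fin 8) : Fin 8 := if w.val < 4 then 4 else 2

theorem tr_decomp : ∀ w : Fin 8, w ≠ 0 →
    (0 : Fin 8) ≠ w ∧ 0 ≠ uOf w ∧ 0 ≠ uOf w ^^^ w ∧ w ≠ uOf w ∧ w ≠ uOf w ^^^ w ∧
    uOf w ≠ uOf w ^^^ w ∧
    vOf w ≠ vOf w ^^^ w ∧ vOf w ≠ vOf w ^^^ uOf w ∧ vOf w ≠ (vOf w ^^^ uOf w) ^^^ w ∧
    vOf w ^^^ w ≠ vOf w ^^^ uOf w ∧ vOf w ^^^ w ≠ (vOf w ^^^ uOf w) ^^^ w ∧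
    vOf w ^^^ uOf w ≠ (vOf w ^^^ uOf w) ^^^ w ∧
    ({0, w, uOf w, uOf w ^^^ w} : Finset (Fin 8)) ∈ planes ∧
    ({vOf w, vOf w ^^^ w, vOf w ^^^ uOf w, (vOf w ^^^ uOf w) ^^^ w} : Finset (Fin 8)) ∈ planes ∧
    ∀ x : Fin 8, x ^^^ w = swap 0 w (swap (uOf w) (uOf w ^^^ w)
      (swap (vOf w) (vOf w ^^^ w) (swap (vOf w ^^^ uOf w) ((vOf w ^^^ uOf w) ^^^ w) x))) := by
  decide +kernel

/-- conjugating a translation by the double transposition `(a b)(c d)` gives a translation -/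
def ConjGood (a b c d : Fin 8) : Prop :=
  ∀ w : Fin 8, ∃ w' : Fin 8, ∀ x : Fin 8,
    swap a b (swap c d ((swap a b (swap c d x)) ^^^ w)) = x ^^^ w'

instance (a b c d : Fin 8) : Decidable (ConjGood a b c d) := by
  unfold ConjGood; infer_instance

/-- the four points are distinct points of `A` -/
def ConjCond (A : Finset (Fin 8)) (a b c d : Fin 8) : Prop :=
  a ∈ A ∧ b ∈ A ∧ c ∈ A ∧ d ∈ A ∧ a ≠ b ∧ a ≠ c ∧ a ≠ d ∧ b ≠ c ∧ b ≠ d ∧ c ≠ d

instance (A : Finset (Fin 8)) (a b c d : Fin 8) : Decidable (ConjCond A a b c d) := by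
  unfold ConjCond; infer_instance

theorem conj_dec : ∀ A ∈ planes, ∀ a b c d : Fin 8, ConjCond A a b c d → ConjGood a b c d := by
  decide +kernel

theorem pkgAff : PkgAff := by
  intro n H L qs φ hF hL
  -- (1) the translations lie in `H`
  have hEH : transl φ ≤ H := by
    rintro g ⟨w, rfl⟩
    by_cases hw : w = 0
    · subst hw; rw [tr_zero, map_one]; exact H.one_mem
    · obtain ⟨h1, h2, h3, h4, h5, h6, h1', h2', h3', h4', h5', h6', hA, hA', hx⟩ :=
        tr_decomp w hw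
      have e : tr w = (swap 0 w * swap (uOf w) (uOf w ^^^ w)) *
          (swap (vOf w) (vOf w ^^^ w) * swap (vOf w ^^^ uOf w) ((vOf w ^^^ uOf w) ^^^ w)) := by
        refine Equiv.ext fun x => ?_
        rw [tr_apply, hx x]; rfl
      rw [e, map_mul]
      exact H.mul_mem ((hF _ hA).2 _ (via_dt φ h1 h2 h3 h4 h5 h6))
        ((hF _ hA').2 _ (via_dt φ h1' h2' h3' h4' h5' h6'))
  -- the generators come from `Perm (Fin 8)` and normalize the translations
  have hgen : ∀ g, (∃ A ∈ planes, DT (A.map φ) g) →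
      ∃ σ : Perm (Fin 8), g = Perm.viaEmbeddingHom φ σ ∧ σ * σ = 1 ∧
        ∀ w, ∃ w', σ * tr w * σ = tr w' := by
    rintro g ⟨A, hA, hg⟩
    have hcard : A.card = 4 := planes_card A hA
    obtain ⟨a, b, c, d, ha, hb, hc, hd, hab, hac, had, hbc, hbd, hcd, rfl⟩ :=
      dt_pull φ hcard hg
    refine ⟨swap a b * swap c d, rfl, ?_, fun w => ?_⟩
    · exact (dt_swap hab hac had hbc hbd hcd).1
    · obtain ⟨w', hw'⟩ :=
        conj_dec A hA a b c d ⟨ha, hb, hc, hd, hab, hac, had, hbc, hbd, hcd⟩ w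
      exact ⟨w', Equiv.ext fun x => hw' x⟩
  have hnormgen : ∀ g, (∃ A ∈ planes, DT (A.map φ) g) →
      ∀ m, m ∈ transl φ ↔ g * m * g⁻¹ ∈ transl φ := by
    intro g hg m
    obtain ⟨σ, rfl, hσ, hconj⟩ := hgen g hg
    have hinv : (Perm.viaEmbeddingHom φ σ)⁻¹ = Perm.viaEmbeddingHom φ σ := by
      rw [← map_inv]; congr 1; exact inv_eq_of_mul_eq_one_left hσ
    rw [hinv]
    have key : ∀ m ∈ transl φ,
        Perm.viaEmbeddingHom φ σ * m * Perm.viaEmbeddingHom φ σ ∈ transl φ := by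
      rintro m ⟨w, rfl⟩
      obtain ⟨w', hw'⟩ := hconj w
      exact ⟨w', by rw [← map_mul, ← map_mul, hw']⟩
    constructor
    · exact key m
    · intro h
      have h2 := key _ h
      have hs : Perm.viaEmbeddingHom φ σ * Perm.viaEmbeddingHom φ σ = 1 := by
        rw [← map_mul, hσ, map_one]
      have e : Perm.viaEmbeddingHom φ σ *
          (Perm.viaEmbeddingHom φ σ * m * Perm.viaEmbeddingHom φ σ) *
          Perm.viaEmbeddingHom φ σ = m := by
        calc Perm.viaEmbeddingHom φ σ *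
              (Perm.viaEmbeddingHom φ σ * m * Perm.viaEmbeddingHom φ σ) *
              Perm.viaEmbeddingHom φ σ
            = (Perm.viaEmbeddingHom φ σ * Perm.viaEmbeddingHom φ σ) * m *
              (Perm.viaEmbeddingHom φ σ * Perm.viaEmbeddingHom φ σ) := by group
          _ = m := by rw [hs]; group
      rwa [e] at h2
  have hnormcl : ∀ l ∈ Subgroup.closure {g | ∃ A ∈ planes, DT (A.map φ) g},
      ∀ m, m ∈ transl φ ↔ l * m * l⁻¹ ∈ transl φ := by
    intro l hl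
    induction hl using Subgroup.closure_induction with
    | mem g hg => exact hnormgen g hg
    | one => intro m; simp
    | mul a b _ _ iha ihb =>
      intro m
      have e : a * b * m * (a * b)⁻¹ = a * (b * m * b⁻¹) * a⁻¹ := by group
      rw [e, ihb m, iha (b * m * b⁻¹)]
    | inv a _ iha =>
      intro m
      have e : a * (a⁻¹ * m * a⁻¹⁻¹) * a⁻¹ = m := by group
      rw [iha (a⁻¹ * m * a⁻¹⁻¹), e]
  have hnorm : ∀ l ∈ L, ∀ m ∈ transl φ, l * m * l⁻¹ ∈ transl φ := fun l hl m hm =>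
    (hnormcl l (hL hl) m).1 hm
  have hLrange : L ≤ (Perm.viaEmbeddingHom φ).range := by
    refine hL.trans ((Subgroup.closure_le _).2 ?_)
    intro g hg
    obtain ⟨σ, rfl, -, -⟩ := hgen g hg
    exact ⟨σ, rfl⟩
  -- (3) `L` consists of translations
  have hLE : L ≤ transl φ := by
    rcases lemQ H L qs (transl φ) hEH hnorm with h | ⟨-, hcen⟩
    · exact h
    · intro l hl
      obtain ⟨lam, rfl⟩ := hLrange hl
      have hc : ∀ w, tr w * lam = lam * tr w := by
        intro w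
        apply Perm.viaEmbeddingHom_injective φ
        rw [map_mul, map_mul]
        exact hcen _ ⟨w, rfl⟩ _ hl
      refine ⟨lam 0, ?_⟩
      congr 1
      refine Equiv.ext fun x => ?_
      have h1 := congrArg (fun p : Perm (Fin 8) => p 0) (hc x)
      simp only [Perm.mul_apply, tr_apply] at h1
      rw [zero_xor8] at h1
      rw [tr_apply, ← h1, xor8_comm]
  -- contradiction: `L` is perfect and abelian
  have hbot : L ≤ ⊥ := by
    apply qs.perf ⊥
    intro a ha b hb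
    rw [Subgroup.mem_bot]
    have h1 := transl_comm φ (hLE ha) (hLE hb)
    rw [h1]; group
  exact qs.ne (le_bot_iff.1 hbot)

end Cfsg.Agent.Lib.Helper61.Alt2
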